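/-
Fixed spaces of elements of prime order `p ≥ 5`: counting lemmas.
-/
import Cfsg.Agent.RepX.A
import Cfsg.Agent.BG2.Extra

set_option autoImplicit false
set_option linter.unusedSectionVars false

open Module Subgroup CF.BG CF.BG2 CF.RepX
open scoped commutatorElement

namespace CF.Flav

variable {G : Type*} [Group G] {p : ℕ} {x : G}

/-- the number of orbits of an element of prime order -/
theorem orbit_count [Finite G] (hp : p.Prime) (hx : orderOf x = p) (ι : Type*) [Finite ι]
    [MulAction G ι] : p * Nat.card (MulAction.orbitRel.Quotient (zpowers x) ι) =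
      Nat.card ι + (p - 1) * Nat.card {i : ι // x • i = i} := by
  classical
  have := Fintype.ofFinite ι
  have := Fintype.ofFinite (zpowers x)
  have := Fintype.ofFinite (MulAction.orbitRel.Quotient (zpowers x) ι)
  have h := MulAction.sum_card_fixedBy_eq_card_orbits_mul_card_group (zpowers x) ι
  have c : Fintype.card (zpowers x) = p := by rw [← Nat.card_eq_fintype_card, Nat.card_zpowers, hx]
  rw [c, ← Finset.add_sum_erase _ _ (Finset.mem_univ 1), Finset.sum_congr rfl
    (g := fun _ => Nat.card {i : ι // x • i = i}) fun g hg => ?_, Finset.sum_const,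
    Finset.card_erase_of_mem (Finset.mem_univ _), Finset.card_univ, c] at h
  · rw [mul_comm, Nat.card_eq_fintype_card, ← h, smul_eq_mul, Nat.card_eq_fintype_card (α := ι)]
    congr 1
    exact Fintype.card_congr (Equiv.subtypeUnivEquiv fun i => by simp)
  · rw [← Nat.card_eq_fintype_card]
    refine Nat.card_congr (Equiv.subtypeEquivRight fun i => ?_)
    have : Fact p.Prime := ⟨hp⟩
    have e : zpowers g = ⊤ := zpowers_eq_top_of_prime_card (by rw [Nat.card_eq_fintype_card, c])
      (Finset.ne_of_mem_erase hg)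
    have key : ∀ a b : G, b ∈ zpowers a → a • i = i → b • i = i := fun a b hb h =>
      (zpowers_le.2 (show a ∈ MulAction.stabilizer G i from h)) hb
    refine ⟨fun h => key g x ?_ h, fun h => key x g g.2 h⟩
    obtain ⟨n, hn⟩ : (⟨x, mem_zpowers x⟩ : zpowers x) ∈ zpowers g := e ▸ mem_top _
    exact ⟨n, congrArg Subtype.val hn⟩

variable {k V : Type*} [Field k] [AddCommGroup V] [Module k V] [FiniteDimensional k V]

theorem finrank_sp_le {ι : Type*} (W : ι → Submodule k V) {d : ℕ} (hd : ∀ i, finrank k (W i) = d)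
    (J : Finset ι) : finrank k (Sp W (J : Set ι)) ≤ J.card * d := by
  classical
  induction J using Finset.induction_on with
  | empty => simp [Sp]
  | insert a s ha ih =>
    rw [Finset.card_insert_of_notMem ha, Finset.coe_insert, Sp, iSup_insert, add_mul, one_mul,
      add_comm]
    exact (Submodule.finrank_add_le_finrank_add_finrank _ _).trans (add_le_add (hd a).le ih)

/-- dimension of the fixed space of an operator permuting a direct decomposition -/
theorem dim_perm [Finite G] (hp : p.Prime) (hx : orderOf x = p) {ι : Type*} [Finite ι]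
    [MulAction G ι] (ρ : G →* End k V) {W : ι → Submodule k V} (ind : iSupIndep W)
    (top : ⨆ i, W i = ⊤) (hW : ∀ (g : G) i, ∀ v ∈ W i, ρ g v ∈ W (g • i)) {d : ℕ}
    (hd : ∀ i, finrank k (W i) = d) :
    Nat.card ι * d = finrank k V ∧ p * finrank k (fixSub ρ (zpowers x)) ≤
      (Nat.card ι + (p - 1) * Nat.card {i : ι // x • i = i}) * d := by
  classical
  have := Fintype.ofFinite ι
  constructor
  · rw [← (LinearEquiv.ofBijective (DirectSum.coeLinearMap W)
      (DirectSum.isInternal_submodule_of_iSupIndep_of_iSup_eq_top ind top)).finrank_eq,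
      finrank_directSum, Finset.sum_congr rfl fun i _ => hd i, Finset.sum_const, Finset.card_univ,
      Nat.card_eq_fintype_card, smul_eq_mul]
  rw [← orbit_count hp hx, mul_assoc]
  refine Nat.mul_le_mul_left _ ?_
  have := Fintype.ofFinite (MulAction.orbitRel.Quotient (zpowers x) ι)
  let J : Finset ι := Finset.univ.image
    (Quotient.out : MulAction.orbitRel.Quotient (zpowers x) ι → ι)
  refine le_trans ?_ ((finrank_sp_le W hd J).trans (Nat.mul_le_mul_right _
    (Finset.card_image_le.trans (by rw [Finset.card_univ, Nat.card_eq_fintype_card]))))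
  obtain ⟨e, e1, -, e3, e4⟩ := exists_proj ind (J : Set ι)
  refine LinearMap.finrank_le_finrank_of_injective (f := LinearMap.codRestrict _
    (e ∘ₗ (fixSub ρ (zpowers x)).subtype) fun _ => e1 _)
    ((injective_iff_map_eq_zero _).2 fun v hv => Subtype.ext ?_)
  have h0 : e v = 0 := congrArg Subtype.val hv
  have h1 : (v : V) ∈ Sp W (J : Set ι)ᶜ := by
    have h2 : (v : V) ∈ Sp W Set.univ := by simp [Sp, top]
    have := sp_induction (f := LinearMap.id - e) (U := Sp W (J : Set ι)ᶜ) (fun i _ w hw => ?_) h2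
    · simpa [h0] using this
    · by_cases c : i ∈ (J : Set ι)
      · simp [e3 i c w hw]
      · simpa [e4 i c w hw] using mem_sp c hw
  have h3 := sp_biInter ind (s := (zpowers x : Set G)) (Set.toFinite _)
    (T := fun g => {i | g⁻¹ • i ∉ (J : Set ι)}) h1 fun g hg => by
      rw [← v.2 g hg]
      exact apply_mem_sp hW g (fun i hi => by simpa using hi) h1
  refine eq_zero_of_sp_empty (Set.eq_empty_iff_forall_notMem.2 fun i hi => ?_) h3
  obtain ⟨g, hg⟩ : (Quotient.mk (MulAction.orbitRel (zpowers x) ι) i).out ∈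
      MulAction.orbit (zpowers x) i :=
    MulAction.orbitRel_apply.1 (Quotient.exact (s := MulAction.orbitRel (zpowers x) ι)
      (Quotient.out_eq _))
  have := Set.mem_iInter₂.1 hi.2 g⁻¹ (inv_mem g.2)
  refine this ?_
  rw [inv_inv, show (g : G) • i = _ from hg]
  exact Finset.mem_coe.2 (Finset.mem_image_of_mem _ (Finset.mem_univ _))

/-- the centralizer of an operator is large when its fixed space is -/
theorem sq_le_conj (ρ : G →* End k V) (h : ρ x ≠ 1) :
    finrank k (fixSub ρ (zpowers x)) ^ 2 + 1 ≤ finrank k (fixSub (conjRep ρ) (zpowers x)) := by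
  set U := fixSub ρ (zpowers x)
  let R := LinearMap.range (ρ x - 1)
  have hU : U = LinearMap.ker (ρ x - 1) := by
    ext v; rw [mem_fixSub_zpowers, LinearMap.mem_ker, LinearMap.sub_apply, sub_eq_zero]; rfl
  have hq : finrank k (V ⧸ R) = finrank k U := by
    have h1 := R.finrank_quotient_add_finrank
    have h2 := (ρ x - 1).finrank_range_add_finrank_ker
    rw [← hU] at h2
    change finrank k R + _ = _ at h2
    omega
  let Φ : ((V ⧸ R) →ₗ[k] U) →ₗ[k] End k V :=
    (LinearMap.llcomp k V U V U.subtype) ∘ₗ (LinearMap.lcomp k U R.mkQ)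
  have Φa : ∀ f v, Φ f v = f (R.mkQ v) := fun _ _ => rfl
  have inj : Function.Injective Φ := (injective_iff_map_eq_zero _).2 fun f hf =>
    LinearMap.ext fun q => by
      obtain ⟨v, rfl⟩ := R.mkQ_surjective q
      exact Subtype.ext (by rw [← Φa, hf]; rfl)
  have lt : LinearMap.range Φ < fixSub (conjRep ρ) (zpowers x) := by
    refine lt_of_le_of_ne ?_ fun e => h ?_
    · rintro _ ⟨f, rfl⟩
      refine mem_fixSub_zpowers.2 (conjRep_eq_iff.2 (LinearMap.ext fun v => ?_))
      rw [End.mul_apply, End.mul_apply, Φa, Φa, mem_fixSub_zpowers.1 (f _).2]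
      congr 2
      exact ((Submodule.Quotient.eq R).2 ⟨v, rfl⟩).symm
    · obtain ⟨f, hf⟩ : (1 : End k V) ∈ LinearMap.range Φ :=
        e ▸ mem_fixSub_zpowers.2 (conjRep_eq_iff.2 (by simp))
      refine LinearMap.ext fun v => ?_
      have : v = f (R.mkQ v) := by rw [← Φa, hf]; rfl
      rw [End.one_apply, this]
      exact mem_fixSub_zpowers.1 (f _).2
  have := Submodule.finrank_lt_finrank_of_lt lt
  rw [LinearMap.finrank_range_of_inj inj, finrank_linearMap, hq] at this
  rw [sq]; omega

/-- `x` has order dividing the prime `p ≥ 5` and its conjugates generate the group -/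
structure Gen (p : ℕ) (x : G) : Prop where
  hp : p.Prime
  h5 : 5 ≤ p
  pw : x ^ p = 1
  gen : normalClosure {x} = ⊤

theorem Gen.map (h : Gen p x) {G' : Type*} [Group G'] (f : G →* G') (hf : Function.Surjective f) :
    Gen p (f x) :=
  ⟨h.hp, h.h5, by rw [← map_pow, h.pw, map_one], by
    rw [← Set.image_singleton, ← map_normalClosure _ _ hf, h.gen, map_top_of_surjective _ hf]⟩

theorem Gen.eq_top (h : Gen p x) {N : Subgroup G} [N.Normal] (hx : x ∈ N) : N = ⊤ :=
  top_le_iff.1 (h.gen ▸ normalClosure_le_normal (Set.singleton_subset_iff.2 hx))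

theorem Gen.ord (h : Gen p x) (h1 : x ≠ 1) : orderOf x = p :=
  have : Fact p.Prime := ⟨h.hp⟩
  orderOf_eq_prime h.pw h1

theorem le_index {U : Type*} [Group U] [Finite U] {r : ℕ} (hr : r.Prime) (hU : IsPGroup r U)
    (hp : p.Prime) (C : Subgroup U) (hC : C ≠ ⊤) (h : p ∣ Nat.card U + (p - 1) * Nat.card C) :
    p ≤ C.index := by
  have : Fact r.Prime := ⟨hr⟩
  have h1 : C.index ≠ 1 := fun e => hC (index_eq_one.1 e)
  have h0 : C.index ≠ 0 := index_ne_zero_of_finite
  rw [← C.card_mul_index] at h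
  have h2 : p ∣ Nat.card C * (C.index - 1) := by
    obtain ⟨q, hq⟩ : ∃ q, C.index = q + 1 := ⟨C.index - 1, by omega⟩
    obtain ⟨p', rfl⟩ : ∃ q, p = q + 1 := ⟨p - 1, by have := hp.pos; omega⟩
    rw [hq] at h ⊢
    simp only [add_tsub_cancel_right] at h ⊢
    rw [show Nat.card C * (q + 1) + p' * Nat.card C = Nat.card C * q + (p' + 1) * Nat.card C by
      ring] at h
    exact (Nat.dvd_add_left (dvd_mul_right _ _)).1 h
  rcases (Nat.Prime.dvd_mul hp).1 h2 with h3 | h3
  · obtain ⟨a, ha⟩ := (hU.to_subgroup C).exists_card_eq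
    obtain ⟨b, hb⟩ := hU.index C
    rw [ha] at h3
    obtain rfl := (Nat.prime_dvd_prime_iff_eq hp hr).1 (hp.dvd_of_dvd_pow h3)
    rw [hb] at h1 ⊢
    exact Nat.le_self_pow (fun e => h1 (by rw [e, pow_zero])) _
  · have := Nat.le_of_dvd (by omega) h3
    omega

/-- few conjugates of `x` lie in a proper subgroup -/
theorem perm_aux (n : ℕ) : ∀ {G : Type*} [Group G] [Finite G] [Group.IsSolvable G] {x : G},
    Nat.card G ≤ n → Gen p x → ∀ H : Subgroup G, H ≠ ⊤ →
      p * Nat.card {g | g⁻¹ * x * g ∈ H} ≤ Nat.card G := by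
  induction n with
  | zero => intro G _ _ _ x h; exact absurd h (by simp [Nat.card_pos.ne'])
  | succ n ih =>
  intro G _ _ _ x hn h H hH
  have nt : (⊤ : Subgroup G) ≠ ⊥ := fun e => hH (top_le_iff.1 (e ▸ bot_le))
  obtain ⟨U, -, hU⟩ := exists_minN (A := ⊤) nt (by simp)
  have : U.Normal := normalizer_eq_top_iff.1 (top_le_iff.1 hU.norm)
  obtain ⟨r, hr, ab⟩ := hU.exists_abelem inferInstance
  by_cases c : H ⊔ U = ⊤
  swap
  · have h1 := ih (G := G ⧸ U) (by
      have := U.card_mul_index
      have := (one_lt_card_iff_ne_bot U).2 hU.ne_bot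
      have : U.index ≠ 0 := index_ne_zero_of_finite
      change U.index ≤ n
      nlinarith) (h.map _ (QuotientGroup.mk'_surjective U)) (H.map (QuotientGroup.mk' U))
      fun e => c (by
        have := congrArg (comap (QuotientGroup.mk' U)) e
        rwa [comap_map_eq, QuotientGroup.ker_mk', comap_top] at this)
    have h2 := QuotientGroup.card_preimage_mk U
      {g | g⁻¹ * QuotientGroup.mk' U x * g ∈ H.map (QuotientGroup.mk' U)}
    have h3 : Nat.card {g | g⁻¹ * x * g ∈ H} ≤ Nat.card (QuotientGroup.mk ⁻¹'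
        {g | g⁻¹ * QuotientGroup.mk' U x * g ∈ H.map (QuotientGroup.mk' U)}) :=
      Nat.card_mono (Set.toFinite _) fun g hg => ⟨_, hg, rfl⟩
    rw [U.card_eq_card_quotient_mul_card_subgroup]
    rw [h2] at h3
    calc _ ≤ p * (Nat.card U * _) := Nat.mul_le_mul_left _ h3
      _ = Nat.card U * (p * _) := by ring
      _ ≤ Nat.card U * _ := Nat.mul_le_mul_left _ h1
      _ = _ := mul_comm _ _
  have d : U ⊓ H = ⊥ := (hU.eq_bot_or inf_le_left (c ▸ sup_le (norm_inf (le_top.trans hU.norm)
    (le_norm_self H)) (ab.abel.le_norm inf_le_left))).resolve_right fun e => hH (by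
      rw [← c]; exact (sup_eq_left.2 (e ▸ inf_le_right)).symm)
  let C : Subgroup U := (𝐂₁ x).subgroupOf U
  by_cases hC : C = ⊤
  · have h1 : 𝐂 U = ⊤ := h.eq_top (le_cent1_iff.1 (subgroupOf_eq_top.1 hC))
    have : H.Normal := normalizer_eq_top_iff.1 (top_le_iff.1 (c ▸ sup_le (le_norm_self H)
      (norm_of_cent (cent_symm (le_top.trans h1.ge)))))
    rw [show {g | g⁻¹ * x * g ∈ H} = ∅ from Set.eq_empty_iff_forall_notMem.2 fun g hg =>
      hH (h.eq_top (by simpa [mul_assoc] using this.conj_mem _ hg g))]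
    simp
  have x1 : x ≠ 1 := by rintro rfl; exact hC (by simp [C])
  have hi : p ≤ C.index := by
    let _ : MulAction G U := MulAction.compHom U (MulAut.conjNormal (H := U))
    refine le_index hr (fun u => ⟨1, Subtype.ext (by simpa using ab.pow u u.2)⟩) h.hp C hC ⟨_, (Eq.trans (orbit_count h.hp (h.ord x1) U) ?_).symm⟩
    congr 2
    refine Nat.card_congr (Equiv.subtypeEquivRight fun u => ?_)
    change MulAut.conjNormal x u = u ↔ (u : G) ∈ 𝐂₁ x
    rw [Subtype.ext_iff, MulAut.conjNormal_apply, mem_cent1, mul_inv_eq_iff_eq_mul, eq_comm]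
  refine (Nat.mul_le_mul_right _ hi).trans ?_
  rw [index, ← Nat.card_prod]
  refine Nat.card_le_card_of_injective (fun z => ((z.1.out : U) : G)⁻¹ * z.2) ?_
  rintro ⟨q, a⟩ ⟨q', a'⟩ e
  simp only at e
  set s : G := ((q.out : U) : G)
  set s' : G := ((q'.out : U) : G)
  have hs : s ∈ U := q.out.2
  have hs' : s' ∈ U := q'.out.2
  have h1 : ((a : G)⁻¹ * x * a)⁻¹ * ((a' : G)⁻¹ * x * a') ∈ U ⊓ H := by
    refine mem_inf.2 ⟨?_, H.mul_mem (H.inv_mem a.2) a'.2⟩
    have e' : (a' : G) = s' * s⁻¹ * a := by rw [mul_assoc, e]; group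
    have := this.conj_mem' _ (mul_mem (this.conj_mem' _ (mul_mem hs (inv_mem hs')) x)
      (mul_mem hs' (inv_mem hs))) a
    rw [e']
    convert this using 1
    group
  rw [d, mem_bot, inv_mul_eq_one] at h1
  have h2 : q = q' := by
    rw [← q.out_eq', ← q'.out_eq', QuotientGroup.eq]
    change s⁻¹ * s' ∈ 𝐂₁ x
    have e' : (a' : G) = s⁻¹ * s' * a := by
      rw [← ab.abel.mul_comm hs' (inv_mem hs), mul_assoc, e]; group
    rw [mem_cent1]
    calc s⁻¹ * s' * x = s⁻¹ * s' * a * ((a : G)⁻¹ * x * a) * (a : G)⁻¹ := by group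
      _ = _ := by rw [h1, e']; group
  subst h2
  exact Prod.ext rfl (Subtype.ext (mul_left_cancel e))

theorem perm_le [Finite G] [Group.IsSolvable G] (h : Gen p x) {H : Subgroup G} (hH : H ≠ ⊤) :
    p * Nat.card {q : G ⧸ H // x • q = q} ≤ Nat.card (G ⧸ H) := by
  have h1 := perm_aux _ le_rfl h H hH
  have h2 := QuotientGroup.card_preimage_mk H {q | x • q = q}
  rw [show QuotientGroup.mk ⁻¹' {q : G ⧸ H | x • q = q} = {g | g⁻¹ * x * g ∈ H} from
    Set.ext fun g => by
      change ((x * g : G) : G ⧸ H) = g ↔ _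
      rw [eq_comm, QuotientGroup.eq, ← mul_assoc]; rfl] at h2
  rw [h2, H.card_eq_card_quotient_mul_card_subgroup, mul_left_comm, mul_comm] at h1
  exact Nat.le_of_mul_le_mul_right h1 Nat.card_pos

theorem arith1 {m n f d D : ℕ} (h5 : 5 ≤ p) (hD : n * d = D) (D0 : 0 < D)
    (h1 : p * m ≤ (n + (p - 1) * f) * d) (h2 : p * f ≤ n) : 2 * m < D := by
  obtain ⟨q, rfl⟩ : ∃ q, p = q + 5 := ⟨p - 5, by omega⟩
  rw [show q + 5 - 1 = q + 4 by omega] at h1
  by_contra! c
  have h3 : (q + 5) * ((q + 5) * m) ≤ (q + 5) * D + (q + 4) * D := by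
    calc _ ≤ (q + 5) * ((n + (q + 4) * f) * d) := Nat.mul_le_mul_left _ h1
      _ = (q + 5) * (n * d) + (q + 4) * ((q + 5) * f * d) := by ring
      _ ≤ _ := by rw [← hD]; gcongr
  have m0 : 0 < m := by omega
  nlinarith

theorem arith2 {r a b : ℕ} (hp : p.Prime) (h5 : 5 ≤ p) (hr : r.Prime) (h1 : 2 * b < a) (h2 : a ≠ 1)
    (h : p ∣ r ^ a + (p - 1) * r ^ b) : 4 * (r ^ a + (p - 1) * r ^ b) ≤ p * r ^ a := by
  obtain ⟨j, rfl⟩ : ∃ j, a = b + j := ⟨a - b, by omega⟩
  obtain ⟨q, rfl⟩ : ∃ q, p = q + 5 := ⟨p - 5, by omega⟩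
  rw [show q + 5 - 1 = q + 4 by omega] at h ⊢
  have j2 : 2 ≤ j := by omega
  have r2 := hr.two_le
  have key : 4 * (q + 4) ≤ (q + 1) * r ^ j := by
    rw [pow_add, mul_comm (q + 4), ← mul_add] at h
    rcases (Nat.Prime.dvd_mul hp).1 h with h3 | h3
    · obtain rfl := (Nat.prime_dvd_prime_iff_eq hp hr).1 (hp.dvd_of_dvd_pow h3)
      have : (q + 5) ^ 2 ≤ (q + 5) ^ j := Nat.pow_le_pow_right (by omega) j2
      nlinarith
    · have h4 : 4 ≤ r ^ j := (show 4 = 2 ^ 2 by norm_num) ▸
        (Nat.pow_le_pow_left r2 2).trans (Nat.pow_le_pow_right (by omega) j2)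
      have h6 : q + 5 ∣ r ^ j - 1 := by
        rw [show r ^ j + (q + 4) = r ^ j - 1 + (q + 5) by omega] at h3
        exact (Nat.dvd_add_left (dvd_refl _)).1 h3
      have h7 := Nat.le_of_dvd (by omega) h6
      rcases Nat.lt_or_ge q 2 with hq | hq
      · have q0 : q = 0 := by
          by_contra c
          obtain rfl : q = 1 := by omega
          norm_num at hp
        subst q0
        by_contra! c
        have : r ^ j = 6 ∨ r ^ j = 11 := by omega
        have h8 : r ^ 2 ∣ r ^ j := pow_dvd_pow _ j2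
        have h9 : r ^ 2 ≤ 11 := Nat.le_of_dvd (by omega) h8 |>.trans (by omega)
        have : r ≤ 3 := by nlinarith
        interval_cases r <;> omega
      · have : (q + 1) * (q + 6) ≤ (q + 1) * r ^ j := Nat.mul_le_mul_left _ (by omega)
        nlinarith
  rw [pow_add]
  have : 0 < r ^ b := by positivity
  nlinarith

end CF.Flav
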