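/-
Fixed spaces of elements of prime order `p ≥ 5` in solvable groups: the irreducible case over an
algebraically closed field.
-/
import Cfsg.Agent.Flav.A
import Cfsg.Agent.Classical.Wt

set_option autoImplicit false
set_option linter.unusedSectionVars false

open Module Subgroup CF.BG CF.BG2 CF.RepX
open scoped commutatorElement

namespace CF.Flav

universe u

/-- the statement for chief factors -/
def GLs (p n : ℕ) : Prop :=
  ∀ {G : Type u} [Group G] [Finite G] [Group.IsSolvable G] {W : Type u} [Group W] [Finite W]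
    [IsMulCommutative W] (φ : G →* MulAut W) {x : G}, Gen p x → φ.ker.index < n → φ x ≠ 1 →
    (∀ U : Subgroup W, (∀ g, ∀ u ∈ U, φ g u ∈ U) → U = ⊥ ∨ U = ⊤) →
    ∃ r a b : ℕ, r.Prime ∧ Nat.card W = r ^ a ∧ Nat.card {w // φ x w = w} = r ^ b ∧ 2 * b < a

variable {k V : Type*} [Field k] [AddCommGroup V] [Module k V] [FiniteDimensional k V] {p : ℕ}

theorem finrank_le_of_maps {A B : Submodule k V} (T : End k V) (hT : Function.Injective T)
    (h : ∀ v ∈ A, T v ∈ B) : finrank k A ≤ finrank k B :=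
  LinearMap.finrank_le_finrank_of_injective (f := T.restrict h) fun _ _ e =>
    Subtype.ext (hT (congrArg Subtype.val e))

theorem wt_unique {G : Type*} [Group G] {ρ : G →* End k V} {N : Subgroup G} {l l' : Wt N k} {v : V}
    (v0 : v ≠ 0) (h : v ∈ wtSp ρ l) (h' : v ∈ wtSp ρ l') : l = l' :=
  funext fun n => smul_left_injective k v0 (by
    simp only; rw [← mem_wtSp.1 h n, mem_wtSp.1 h' n])

theorem case_abel {G : Type*} [Group G] [Finite G] [Group.IsSolvable G] [IsAlgClosed k]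
    [Nontrivial V] {ρ : G →* End k V} (inj : Function.Injective ρ) (irr : Irr ρ) {x : G}
    (h : Gen p x) (x1 : x ≠ 1) {N : Subgroup G} [N.Normal] (ab : Abel N) (nc : ¬ N ≤ center G) :
    2 * finrank k (fixSub ρ (zpowers x)) < finrank k V := by
  obtain ⟨χ, v, -, v0, hv⟩ := CF.Classical.exists_joint_eigen (fun n : N => ρ n) ⊤ top_ne_bot
    (fun _ _ _ => trivial) fun i j v _ => by
      rw [← rep_mul_apply, ← rep_mul_apply, ab.mul_comm i.2 j.2]
  change Wt N k at χ
  have hv' : v ∈ wtSp ρ χ := mem_wtSp.2 hv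
  have ne : MulAction.stabilizer G χ ≠ ⊤ := fun e => nc fun n hn => mem_center_iff.2 fun g => by
    have top := (irr (wtSp ρ χ) fun g u hu => by
      have := apply_mem_wtSp g hu
      rwa [show g • χ = χ from (e ▸ mem_top g : g ∈ MulAction.stabilizer G χ)] at this).resolve_left
      fun e => v0 (by simpa [e] using hv')
    have s : ∀ u, ρ n u = χ ⟨n, hn⟩ • u := fun u => mem_wtSp.1 (top ▸ Submodule.mem_top) ⟨n, hn⟩
    exact inj (LinearMap.ext fun u => by rw [rep_mul_apply, rep_mul_apply, s, s, map_smul])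
  let W : G ⧸ MulAction.stabilizer G χ → Submodule k V := fun q =>
    wtSp ρ (MulAction.ofQuotientStabilizer G χ q)
  have hW : ∀ (g : G) i, ∀ v ∈ W i, ρ g v ∈ W (g • i) := fun g i v hv => by
    simp only [W, MulAction.ofQuotientStabilizer_smul]
    exact apply_mem_wtSp g hv
  have le : ∀ (g : G) i, finrank k (W i) ≤ finrank k (W (g • i)) := fun g i =>
    finrank_le_of_maps _ (rep_injective ρ g) (hW g i)
  have top : ⨆ i, W i = ⊤ := (irr _ fun g => show ⨆ i, W i ≤ (⨆ i, W i).comap (ρ g) from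
    iSup_le fun i u hu => le_iSup W (g • i) (hW g i u hu)).resolve_left fun e => v0 (by
      have : v ∈ ⨆ i, W i := le_iSup W ((1 : G) : G ⧸ _) (by simpa [W] using hv')
      simpa [e] using this)
  obtain ⟨h1, h2⟩ := dim_perm h.hp (h.ord x1) ρ ((wtSp_indep ρ N).comp
    (MulAction.injective_ofQuotientStabilizer G χ)) top hW
    (d := finrank k (W ((1 : G) : G ⧸ _))) fun i => by
      obtain ⟨g, rfl⟩ := QuotientGroup.mk_surjective i
      refine le_antisymm ?_ ?_
      · have := le g⁻¹ (g : G ⧸ _)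
        rwa [MulAction.Quotient.smul_coe, smul_eq_mul, inv_mul_cancel] at this
      · have := le g ((1 : G) : G ⧸ _)
        rwa [MulAction.Quotient.smul_coe, smul_eq_mul, mul_one] at this
  exact arith1 h.h5 h1 finrank_pos h2 (perm_le h ne)

theorem case_nonab {n : ℕ} (IH : GLs.{u} p n) {G : Type u} [Group G] [Finite G]
    [Group.IsSolvable G] (hn : Nat.card G ≤ n) [IsAlgClosed k]
    [Nontrivial V] {ρ : G →* End k V} (inj : Function.Injective ρ) (irr : Irr ρ) {x : G}
    (h : Gen p x) (x1 : x ≠ 1) {M : Subgroup (G ⧸ center G)} (hM : MinN M ⊤)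
    (nd : ∀ β : G, (β : G ⧸ center G) ∈ M →
      (∀ α : G, (α : G ⧸ center G) ∈ M → α * β = β * α) → β ∈ center G) :
    2 * finrank k (fixSub ρ (zpowers x)) < finrank k V := by
  classical
  have : M.Normal := normalizer_eq_top_iff.1 (top_le_iff.1 hM.norm)
  obtain ⟨r0, -, ab⟩ := hM.exists_abelem inferInstance
  have hcm := ab.abel.comm
  have := Fintype.ofFinite M
  let τ : G ⧸ center G →* End k (End k V) := QuotientGroup.lift _ (conjRep ρ) fun z hz =>
    have ⟨_, hc⟩ := irr.scalar hz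
    LinearMap.ext fun T => conjRep_of_scalar hc T
  have τa : ∀ g : G, τ g = conjRep ρ g := fun _ => rfl
  have ρ0 : ∀ g, ρ g ≠ 0 := fun g e => by
    obtain ⟨v, hv⟩ := exists_ne (0 : V)
    exact rep_apply_ne_zero ρ g hv (by rw [e]; rfl)
  have ex : ∀ b : M, ∃ l : Wt M k, ∀ β : G, (β : G ⧸ center G) = b → ρ β ∈ wtSp τ l := by
    rintro ⟨b, hb⟩
    obtain ⟨β, rfl⟩ := QuotientGroup.mk_surjective b
    have : ∀ a : M, ∃ c : k, τ a (ρ β) = c • ρ β := by
      rintro ⟨a, ha⟩
      obtain ⟨α, rfl⟩ := QuotientGroup.mk_surjective a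
      obtain ⟨c, hc⟩ := irr.scalar (z := α * β * α⁻¹ * β⁻¹) ((QuotientGroup.eq_one_iff _).1 (by
        rw [QuotientGroup.mk_mul, QuotientGroup.mk_mul, QuotientGroup.mk_mul,
          ab.abel.mul_comm ha hb]; simp))
      exact ⟨c, by rw [τa, conjRep_rep, ← one_mul (ρ β), ← smul_mul_assoc, ← hc, ← map_mul]; simp⟩
    choose l hl using this
    refine ⟨l, fun β' e => ?_⟩
    obtain ⟨c, hc⟩ := irr.scalar (QuotientGroup.eq.1 e.symm)
    rw [show β' = β * (β⁻¹ * β') by simp, map_mul, hc, mul_smul_comm, mul_one]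
    exact Submodule.smul_mem _ _ (mem_wtSp.2 hl)
  choose χ hχ using ex
  have lift : ∀ b : M, ∃ β : G, (β : G ⧸ center G) = b := fun b => QuotientGroup.mk_surjective _
  have wmul : ∀ {l l' : Wt M k} {S T : End k V}, S ∈ wtSp τ l → T ∈ wtSp τ l' →
      S * T ∈ wtSp τ (N := M) fun a => l a * l' a := fun {l l' S T} hS hT => mem_wtSp.2 fun a => by
    obtain ⟨α, e⟩ := lift a
    have : τ a (S * T) = τ a S * τ a T := by
      rw [← e, τa, conjRep_apply, conjRep_apply, conjRep_apply]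
      simp only [mul_assoc]
      rw [← mul_assoc (ρ α⁻¹), ← map_mul, inv_mul_cancel, map_one, one_mul]
    rw [this, mem_wtSp.1 hS, mem_wtSp.1 hT, smul_mul_smul_comm]
  have m1 : ∀ b b' a, χ (b * b') a = χ b a * χ b' a := fun b b' a => by
    obtain ⟨β, e⟩ := lift b
    obtain ⟨β', e'⟩ := lift b'
    have := wmul (hχ b β e) (hχ b' β' e')
    rw [← map_mul] at this
    exact congrFun (wt_unique (ρ0 _) (hχ (b * b') (β * β') (by simp [e, e'])) this) a
  have m2 : ∀ b a a', χ b (a * a') = χ b a * χ b a' := fun b a a' => by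
    obtain ⟨β, e⟩ := lift b
    have s := mem_wtSp.1 (hχ b β e)
    refine smul_left_injective k (ρ0 β) ?_
    simp only
    rw [← s, coe_mul, rep_mul_apply, s, map_smul, s, smul_smul, mul_comm]
  have cm : ∀ (a b : M) (α β : G), (α : G ⧸ center G) = a → (β : G ⧸ center G) = b →
      (χ b a = 1 ↔ α * β = β * α) := fun a b α β e e' => by
    have s := mem_wtSp.1 (hχ b β e') a
    rw [← e, τa] at s
    constructor
    · intro c
      rw [c, one_smul, conjRep_eq_iff, ← map_mul, ← map_mul] at s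
      exact inj s
    · intro c
      rw [conjRep_eq_iff.2 (by rw [← map_mul, ← map_mul, c])] at s
      exact smul_left_injective k (ρ0 β) (by simp only; rw [← s, one_smul])
  have o1 : ∀ a, χ 1 a = 1 := fun a => have ⟨α, e⟩ := lift a; (cm a 1 α 1 e rfl).2 (by simp)
  have o2 : ∀ b, χ b 1 = 1 := fun b => have ⟨β, e⟩ := lift b; (cm 1 b 1 β rfl e).2 (by simp)
  have nd1 : ∀ b, (∀ a, χ b a = 1) → b = 1 := fun b hb => by
    obtain ⟨β, e⟩ := lift b
    refine Subtype.ext (e ▸ (QuotientGroup.eq_one_iff _).2 (nd β (e ▸ b.2) fun α hα => ?_))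
    exact (cm ⟨_, hα⟩ b α β rfl e).1 (hb _)
  have nd2 : ∀ a, (∀ b, χ b a = 1) → a = 1 := fun a ha => nd1 a fun b => by
    obtain ⟨β, e⟩ := lift b
    obtain ⟨α, e'⟩ := lift a
    exact (cm b a β α e e').2 ((cm a b α β e' e).1 (ha b)).symm
  have ncyc : ∀ b : M, zpowers b ≠ ⊤ := fun b e => hM.ne_bot (by
    have b1 : b = 1 := nd1 b fun a => by
      obtain ⟨j, rfl⟩ : a ∈ Submonoid.powers b := mem_powers_iff_mem_zpowers.2 (e ▸ mem_top a)
      obtain ⟨β, e⟩ := lift b
      exact (cm _ b (β ^ j) β (by simp [e]) e).2 (by group)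
    rw [b1, zpowers_one_eq_bot] at e
    refine eq_bot_iff.2 fun a ha => ?_
    have : (⟨a, ha⟩ : M) = 1 := mem_bot.1 (e ▸ mem_top (⟨a, ha⟩ : M))
    exact mem_bot.2 (congrArg Subtype.val this))
  obtain ⟨b0, hb0⟩ : ∃ b : M, b ≠ 1 := by
    by_contra! c
    exact hM.ne_bot (eq_bot_iff.2 fun a ha => mem_bot.2 (congrArg Subtype.val (c ⟨a, ha⟩)))
  let φ := MulAut.conjNormal (H := M)
  have h' := h.map _ (QuotientGroup.mk'_surjective (center G))
  set y := QuotientGroup.mk' (center G) x with hy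
  have irrM : ∀ U : Subgroup M, (∀ g, ∀ u ∈ U, φ g u ∈ U) → U = ⊥ ∨ U = ⊤ := fun U hU => by
    refine (hM.eq_bot_or (map_subtype_le U) (le_norm_iff.2 ?_)).imp (fun e => ?_) fun e => ?_
    · rintro g - _ ⟨u, hu, rfl⟩
      exact ⟨_, hU g u hu, rfl⟩
    · exact (map_eq_bot_iff_of_injective _ M.subtype_injective).1 e
    · exact map_injective M.subtype_injective (e.trans (by simp [← MonoidHom.range_eq_map]))
  have φy : φ y ≠ 1 := fun e => by
    have : φ.ker = ⊤ := h'.eq_top e
    refine ncyc b0 ((irrM _ fun g u hu => ?_).resolve_left (zpowers_ne_bot.2 hb0))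
    rwa [show φ g = 1 from (this ▸ mem_top g : g ∈ φ.ker)]
  obtain ⟨r, a, b, hr, ha, hb, hab⟩ := IH φ h' (by
    have h1 : M ≤ φ.ker := fun m hm => MulEquiv.ext fun u => Subtype.ext (by
      rw [MulAut.conjNormal_apply, ab.abel.mul_comm hm u.2]; simp)
    have h2 := M.card_mul_index
    have h3 := (one_lt_card_iff_ne_bot M).2 hM.ne_bot
    have h4 : M.index ≠ 0 := index_ne_zero_of_finite
    have h5 := Nat.le_of_dvd (Nat.pos_of_ne_zero h4) (index_dvd_of_le h1)
    have h6 := Nat.card_le_card_of_surjective _ (QuotientGroup.mk'_surjective (center G))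
    have h7 : 2 * M.index ≤ Nat.card M * M.index := Nat.mul_le_mul_right _ h3
    omega) φy irrM
  have : Fact r.Prime := ⟨hr⟩
  have a1 : a ≠ 1 := fun e => ncyc b0 (zpowers_eq_top_of_prime_card (p := r) (by rw [ha, e, pow_one]) hb0)
  have hk : ((Fintype.card M : ℕ) : k) ≠ 0 := fun e => by
    rw [← Nat.card_eq_fintype_card, ha, Nat.cast_pow] at e
    have := (CharP.charP_iff_prime_eq_zero (R := k) hr).2 (pow_eq_zero_iff (by omega) |>.1 e)
    refine hb0 (nd1 b0 fun c => ?_)
    let f : M →* k := ⟨⟨χ b0, o2 b0⟩, m2 b0⟩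
    have e1 : f c ^ r ^ a = 1 := by rw [← map_pow, ← ha, pow_card_eq_one', map_one]
    have e2 : (f c - 1) ^ r ^ a = 0 := by rw [sub_pow_char_pow, e1, one_pow, sub_self]
    exact sub_eq_zero.1 (pow_eq_zero_iff (pow_ne_zero _ hr.ne_zero) |>.1 e2)
  let _ : MulAction (G ⧸ center G) M := MulAction.compHom M φ
  have hW : ∀ (g : G ⧸ center G) (i : M), ∀ T ∈ wtSp τ (χ i), τ g T ∈ wtSp τ (χ (g • i)) := by
    intro g i T hT
    obtain ⟨β, e⟩ := lift i
    obtain ⟨γ, rfl⟩ := QuotientGroup.mk_surjective g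
    have h1 := apply_mem_wtSp (γ : G ⧸ center G) (hχ i β e)
    rw [τa, conjRep_rep] at h1
    rw [wt_unique (ρ0 _) (hχ ((γ : G ⧸ center G) • i) (γ * β * γ⁻¹) (by
      rw [QuotientGroup.mk_mul, QuotientGroup.mk_mul, e]; rfl)) h1]
    exact apply_mem_wtSp _ hT
  have le : ∀ i j : M, finrank k (wtSp τ (χ j)) ≤ finrank k (wtSp τ (χ (i * j))) := fun i j => by
    obtain ⟨β, e⟩ := lift i
    refine finrank_le_of_maps (LinearMap.mulLeft k (ρ β)) (fun S T e => ?_) fun T hT => ?_
    · simpa [← mul_assoc, ← map_mul] using congrArg (ρ β⁻¹ * ·) e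
    · rw [show χ (i * j) = fun a => χ i a * χ j a from funext (m1 i j)]
      exact wmul (hχ i β e) hT
  have top : ⨆ i, wtSp τ (χ i) = ⊤ := eq_top_iff.2 fun T _ => by
    have h1 : ∑ i : M, ∑ c : M, χ i c⁻¹ • τ c T = (Fintype.card M : k) • T := by
      rw [Finset.sum_comm, Finset.sum_eq_single 1 (fun c _ hc => ?_) (by simp)]
      · simp [o2, Nat.cast_smul_eq_nsmul]
      · let f : M →* k := ⟨⟨fun i => χ i c⁻¹, o1 _⟩, fun i j => m1 i j _⟩
        rw [← Finset.sum_smul, show ∑ i, χ i c⁻¹ = 0 from sum_hom_units_eq_zero f fun e =>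
          hc (inv_eq_one.1 (nd2 _ fun i => DFunLike.congr_fun e i)), zero_smul]
    rw [← Submodule.smul_mem_iff _ hk, ← h1]
    refine Submodule.sum_mem _ fun i _ => le_iSup (fun i => wtSp τ (χ i)) i (mem_wtSp.2 fun c => ?_)
    rw [map_sum, Finset.smul_sum]
    refine Fintype.sum_equiv (Equiv.mulLeft c) _ _ fun d => ?_
    rw [map_smul, ← rep_mul_apply, smul_smul, ← m2, Equiv.coe_mulLeft, mul_inv_rev,
      hcm.is_comm.comm d⁻¹, mul_inv_cancel_left, coe_mul]
  have y1 : y ≠ 1 := fun e => φy (by rw [e, map_one])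
  obtain ⟨h1, h2⟩ := dim_perm h.hp (h'.ord y1) τ ((wtSp_indep τ M).comp (f := χ) fun i j e => by
      refine mul_inv_eq_one.1 (nd1 _ fun c => ?_)
      rw [m1, e, ← m1, mul_inv_cancel, o1]) top hW (d := finrank k (wtSp τ (χ 1))) fun i =>
    le_antisymm (by have := le i⁻¹ i; rwa [inv_mul_cancel] at this)
      (by have := le i 1; rwa [mul_one] at this)
  have h3 := sq_le_conj ρ (x := x) fun e => x1 (inj (by rw [e, map_one]))
  rw [show fixSub τ (zpowers y) = fixSub (conjRep ρ) (zpowers x) from Submodule.ext fun T => by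
    rw [mem_fixSub_zpowers, mem_fixSub_zpowers]; rfl] at h2
  have h4 := orbit_count h.hp (h'.ord y1) M
  change _ = _ + _ * Nat.card {w // φ y w = w} at h4
  change _ ≤ (_ + _ * Nat.card {w // φ y w = w}) * _ at h2
  rw [ha, hb] at h4 h2
  have h5 := arith2 h.hp h.h5 hr hab a1 ⟨_, h4.symm⟩
  rw [ha, finrank_linearMap] at h1
  have h6 : p * (4 * (finrank k (fixSub ρ (zpowers x)) ^ 2 + 1)) ≤ p * (finrank k V * finrank k V) := by
    rw [← h1, ← mul_assoc p (r ^ a), mul_left_comm]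
    refine le_trans (Nat.mul_le_mul_left 4 ((Nat.mul_le_mul_left _ h3).trans h2)) ?_
    rw [← mul_assoc]
    exact Nat.mul_le_mul_right _ h5
  have h7 := Nat.le_of_mul_le_mul_left h6 h.hp.pos
  by_contra! c
  nlinarith

theorem irr_closed {n : ℕ} (IH : GLs.{u} p n) {G : Type u} [Group G] [Finite G]
    [Group.IsSolvable G] (hn : Nat.card G ≤ n) [IsAlgClosed k]
    [Nontrivial V] {ρ : G →* End k V} (inj : Function.Injective ρ) (irr : Irr ρ) {x : G}
    (h : Gen p x) (x1 : x ≠ 1) : 2 * finrank k (fixSub ρ (zpowers x)) < finrank k V := by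
  by_cases hx : x ∈ center G
  · obtain ⟨c, hc⟩ := irr.scalar hx
    rw [show fixSub ρ (zpowers x) = ⊥ from (Submodule.eq_bot_iff _).2 fun v hv => by
      by_contra v0
      have := mem_fixSub_zpowers.1 hv
      rw [hc, LinearMap.smul_apply, End.one_apply] at this
      have c1 : c = 1 := smul_left_injective k v0 (by simpa using this)
      exact x1 (inj (by rw [hc, c1, one_smul, map_one]))]
    simpa using finrank_pos
  have nt : (⊤ : Subgroup (G ⧸ center G)) ≠ ⊥ := fun e =>
    hx ((QuotientGroup.eq_one_iff _).1 (mem_bot.1 (e ▸ mem_top _)))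
  obtain ⟨M, -, hM⟩ := exists_minN (A := ⊤) nt (by simp)
  have : M.Normal := normalizer_eq_top_iff.1 (top_le_iff.1 hM.norm)
  let N := M.comap (QuotientGroup.mk' (center G))
  by_cases ab : Abel N
  · refine case_abel inj irr h x1 ab fun e => hM.ne_bot (eq_bot_iff.2 fun m hm => ?_)
    obtain ⟨g, rfl⟩ := QuotientGroup.mk_surjective m
    exact (QuotientGroup.eq_one_iff _).2 (e hm)
  refine case_nonab IH hn inj irr h x1 hM fun β hβ c => ?_
  have hZ : (N ⊓ 𝐂 N).Normal := inferInstance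
  rcases hM.eq_bot_or (N := (N ⊓ 𝐂 N).map (QuotientGroup.mk' _))
    (map_le_iff_le_comap.2 inf_le_left) (top_le_iff.2 (normalizer_eq_top_iff.2
      (hZ.map _ (QuotientGroup.mk'_surjective _)))) with e | e
  · exact (QuotientGroup.eq_one_iff _).1 (mem_bot.1 (e ▸ mem_map_of_mem _
      (show β ∈ N ⊓ 𝐂 N from ⟨hβ, mem_cent.2 c⟩)))
  · refine (ab fun g hg => ?_).elim
    obtain ⟨z, hz, e'⟩ : (g : G ⧸ center G) ∈ (N ⊓ 𝐂 N).map (QuotientGroup.mk' _) := e.symm ▸ hg
    rw [show g = z * (z⁻¹ * g) by simp]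
    exact mul_mem hz.2 (center_le_centralizer _ (QuotientGroup.eq.1 e'))

end CF.Flav
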