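/-
Flavell's bound on the fixed space of an element of prime order `p ≥ 5` in a solvable group.
-/
import Cfsg.Agent.Flav.B

set_option autoImplicit false
set_option linter.unusedSectionVars false

open Module Subgroup CF.BG CF.BG2 CF.RepX
open scoped commutatorElement

namespace CF.Flav

universe u v

variable {k : Type*} [Field k] {p n : ℕ} {G : Type u} [Group G] [Finite G] [Group.IsSolvable G]
  {x : G}

theorem exists_faith {V : Type*} [AddCommGroup V] [Module k V] (ρ : G →* End k V) :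
    ∃ σ : G ⧸ ρ.ker →* End k V, Function.Injective σ ∧ ∀ g : G, σ g = ρ g := by
  refine ⟨QuotientGroup.lift ρ.ker ρ fun _ h => h, fun a b e => ?_, fun _ => rfl⟩
  obtain ⟨a, rfl⟩ := QuotientGroup.mk_surjective a
  obtain ⟨b, rfl⟩ := QuotientGroup.mk_surjective b
  refine QuotientGroup.eq.2 ?_
  rw [MonoidHom.mem_ker, map_mul, ← show ρ a = ρ b from e, ← map_mul, inv_mul_cancel, map_one]

theorem any_closed (IH : GLs.{u} p n) (hn : Nat.card G ≤ n) [IsAlgClosed k] (h : Gen p x)
    {M : Subgroup G} [Fintype M] (hk : ((Fintype.card M : ℕ) : k) ≠ 0) (d : ℕ) :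
    ∀ {V : Type v} [AddCommGroup V] [Module k V] [FiniteDimensional k V] [Nontrivial V]
      (ρ : G →* End k V), finrank k V ≤ d → ∑ m : M, ρ m = 0 →
      2 * finrank k (fixSub ρ (zpowers x)) < finrank k V := by
  induction d with
  | zero => intro V _ _ _ _ ρ hd; exact absurd hd (not_le.2 finrank_pos)
  | succ d ih =>
  intro V _ _ _ _ ρ hd hs
  by_cases irr : Irr ρ
  · have x1 : ρ x ≠ 1 := fun e => by
      have : ρ.ker = ⊤ := h.eq_top e
      rw [Finset.sum_congr rfl (g := fun _ => 1) fun (m : M) _ =>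
        show ρ m = 1 from (this ▸ mem_top _ : (m : G) ∈ ρ.ker),
        Finset.sum_const, Finset.card_univ, ← Nat.cast_smul_eq_nsmul k] at hs
      exact one_ne_zero ((smul_eq_zero_iff_right hk).1 hs)
    obtain ⟨σ, inj, hσ⟩ := exists_faith ρ
    have := irr_closed IH ((Nat.card_le_card_of_surjective _
      (QuotientGroup.mk'_surjective ρ.ker)).trans hn) inj
      (fun U hU => irr U fun g u hu => hσ g ▸ hU g u hu)
      (h.map _ (QuotientGroup.mk'_surjective ρ.ker))
      fun e => x1 ((QuotientGroup.eq_one_iff x).1 e)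
    rwa [show fixSub σ (zpowers (QuotientGroup.mk' ρ.ker x)) = fixSub ρ (zpowers x) from
      Submodule.ext fun v => by rw [mem_fixSub_zpowers, mem_fixSub_zpowers, ← hσ]; rfl] at this
  simp only [Irr, not_forall, not_or] at irr
  obtain ⟨W, hW, w0, w1⟩ := irr
  have : Nontrivial W := Submodule.nontrivial_iff_ne_bot.2 w0
  have : Nontrivial (V ⧸ W) := Submodule.Quotient.nontrivial_iff.2 w1
  have e := W.finrank_quotient_add_finrank
  have p1 : 0 < finrank k W := finrank_pos
  have p2 : 0 < finrank k (V ⧸ W) := finrank_pos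
  let q : G →* End k (V ⧸ W) := Representation.quotient ρ W hW
  have qa : ∀ g v, q g (W.mkQ v) = W.mkQ (ρ g v) := fun _ _ => rfl
  have h1 := ih (subRepTop ρ W hW) (by omega) (LinearMap.ext fun w => Subtype.ext (by
    simpa [LinearMap.sum_apply] using LinearMap.congr_fun hs w))
  have h2 := ih q (by omega) (LinearMap.ext fun w => by
    obtain ⟨v, rfl⟩ := W.mkQ_surjective w
    rw [LinearMap.sum_apply, Finset.sum_congr rfl fun (m : M) _ => qa m v, ← map_sum,
      ← LinearMap.sum_apply, hs]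
    simp)
  rw [finrank_fixSub_subRepTop] at h1
  let f := W.mkQ ∘ₗ (fixSub ρ (zpowers x)).subtype
  have h3 := f.finrank_range_add_finrank_ker
  have h4 : finrank k (LinearMap.range f) ≤ finrank k (fixSub q (zpowers x)) :=
    Submodule.finrank_mono (by
      rintro _ ⟨v, rfl⟩
      exact mem_fixSub_zpowers.2 ((qa _ _).trans (congrArg _ (mem_fixSub_zpowers.1 v.2))))
  have h5 : finrank k (LinearMap.ker f) ≤ finrank k (W ⊓ fixSub ρ (zpowers x) : Submodule k V) := by
    rw [← Submodule.finrank_map_subtype_eq]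
    refine Submodule.finrank_mono ?_
    rintro _ ⟨v, hv, rfl⟩
    exact ⟨(Submodule.Quotient.mk_eq_zero W).1 hv, v.2⟩
  omega

theorem irr_any (IH : GLs.{u} p n) {V : Type*} [AddCommGroup V] [Module k V]
    [FiniteDimensional k V] {ρ : G →* End k V} (hn : ρ.ker.index ≤ n) (irr : Irr ρ) (h : Gen p x)
    (x1 : ρ x ≠ 1) : 2 * finrank k (fixSub ρ (zpowers x)) < finrank k V := by
  obtain ⟨σ, inj, hσ⟩ := exists_faith ρ
  have h' := h.map _ (QuotientGroup.mk'_surjective ρ.ker)
  rw [← show fixSub σ (zpowers (QuotientGroup.mk' ρ.ker x)) = fixSub ρ (zpowers x) from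
    Submodule.ext fun v => by rw [mem_fixSub_zpowers, mem_fixSub_zpowers, ← hσ]; rfl]
  have : Nontrivial V := not_subsingleton_iff_nontrivial.1 fun _ => x1 (Subsingleton.elim _ _)
  have nt : (⊤ : Subgroup (G ⧸ ρ.ker)) ≠ ⊥ := fun e =>
    x1 ((QuotientGroup.eq_one_iff x).1 (mem_bot.1 (e ▸ mem_top _)))
  obtain ⟨M, -, hM⟩ := exists_minN (A := ⊤) nt (by simp)
  have : M.Normal := normalizer_eq_top_iff.1 (top_le_iff.1 hM.norm)
  obtain ⟨r, hr, ab⟩ := hM.exists_abelem inferInstance
  have : Fact r.Prime := ⟨hr⟩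
  have := Fintype.ofFinite M
  have f0 : fixSub σ M = ⊥ := (irr _ fun g v hv => hσ g ▸ apply_mem_fixSub_normal σ M g v hv).resolve_right
    fun e => hM.ne_bot (eq_bot_iff.2 fun m hm => inj ((fixSub_eq_top.1 e hm).trans (map_one σ).symm))
  have r0 : (r : k) ≠ 0 := fun e => by
    have := (CharP.charP_iff_prime_eq_zero (R := k) hr).2 e
    obtain ⟨v, -, v0, hv⟩ := CF.Perm.exists_fixed_vector ab.pi.isPGroup (σ.comp M.subtype) ⊤
      (fun _ _ _ => trivial) top_ne_bot
    exact v0 ((Submodule.eq_bot_iff _).1 f0 v fun g hg => hv ⟨g, hg⟩)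
  obtain ⟨τ, hτ⟩ := exists_baseChange (AlgebraicClosure k) σ
  have f1 : fixSub τ M = ⊥ := Submodule.finrank_eq_zero.1 (by rw [hτ, f0, finrank_bot])
  have : Nonempty (Fin (finrank k V)) := ⟨⟨0, finrank_pos⟩⟩
  have := any_closed IH hn h' (M := M) (k := AlgebraicClosure k) (by
    obtain ⟨j, hj⟩ := ab.pi.isPGroup.exists_card_eq
    rw [← Nat.card_eq_fintype_card, hj, Nat.cast_pow]
    refine pow_ne_zero _ fun e => r0 ((algebraMap k (AlgebraicClosure k)).injective ?_)
    rw [map_natCast, e, map_zero]) _ τ le_rfl (LinearMap.ext fun v =>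
      (Submodule.eq_bot_iff _).1 f1 _ fun g hg => by
        rw [LinearMap.sum_apply, map_sum]
        refine Fintype.sum_equiv (Equiv.mulLeft (⟨g, hg⟩ : M)) _ _ fun m => ?_
        rw [← rep_mul_apply]; rfl)
  rwa [hτ, finrank_fin_fun] at this

theorem gls (p n : ℕ) : GLs.{u} p n := by
  induction n with
  | zero => intro G _ _ _ W _ _ _ φ x _ h; exact absurd h (Nat.not_lt_zero _)
  | succ n IH =>
  intro G _ _ _ W _ _ hc φ x h hn x1 irr
  have : Nontrivial W := not_subsingleton_iff_nontrivial.1 fun _ =>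
    x1 (MulEquiv.ext fun _ => Subsingleton.elim _ _)
  obtain ⟨r, hr, hd⟩ := Nat.exists_prime_and_dvd (Finite.one_lt_card (α := W)).ne'
  have : Fact r.Prime := ⟨hr⟩
  obtain ⟨w, hw⟩ := exists_prime_orderOf_dvd_card' r hd
  let U : Subgroup W :=
    { carrier := {w | w ^ r = 1}
      one_mem' := one_pow _
      mul_mem' := fun {a b} ha hb => by
        change _ = _ at ha hb ⊢
        rw [Commute.mul_pow (hc.is_comm.comm a b), ha, hb, one_mul]
      inv_mem' := fun {a} ha => by change _ = _ at ha ⊢; rw [inv_pow, ha, inv_one] }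
  have hU : U = ⊤ := (irr U fun g u hu => by
    change _ = _ at hu ⊢; rw [← map_pow, hu, map_one]).resolve_left fun e => by
      have : w ∈ U := by change _ = _; rw [← hw, pow_orderOf_eq_one]
      rw [e, mem_bot] at this
      rw [this, orderOf_one] at hw
      exact hr.one_lt.ne hw
  obtain ⟨a, e, f, ha, em, ef⟩ := exists_zmod_rep (p := r) (fun w => (hU ▸ mem_top w : w ∈ U)) φ
  let ρ := matRep (ZMod r) f
  have ρa : ∀ g w, ρ g (e w) = e (φ g w) := fun g w => by
    rw [ef, matRep_apply]; simp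
  have e1 : e 1 = 0 := by simpa using em 1 1
  have ker : ρ.ker = φ.ker := by
    ext g
    refine ⟨fun hg => MulEquiv.ext fun w => e.injective ?_, fun hg => LinearMap.ext fun v => ?_⟩
    · rw [← ρa, show ρ g = 1 from hg]; rfl
    · obtain ⟨w, rfl⟩ := e.surjective v
      rw [ρa, show φ g = 1 from hg]; rfl
  have := irr_any IH (ρ := ρ) (ker ▸ Nat.lt_succ_iff.1 hn) (fun S hS => by
    let T : Subgroup W :=
      { carrier := {w | e w ∈ S}
        one_mem' := by change e 1 ∈ S; rw [e1]; exact zero_mem _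
        mul_mem' := fun {a b} ha hb => by change e _ ∈ S; rw [em]; exact add_mem ha hb
        inv_mem' := fun {a} ha => by
          change e _ ∈ S
          rw [eq_neg_of_add_eq_zero_left (by rw [← em, inv_mul_cancel, e1] : e a⁻¹ + e a = 0)]
          exact neg_mem ha }
    refine (irr T fun g u hu => by change e _ ∈ S; rw [← ρa]; exact hS _ _ hu).imp
      (fun c => (Submodule.eq_bot_iff _).2 fun v hv => ?_) fun c => eq_top_iff.2 fun v _ => ?_
    · obtain ⟨w, rfl⟩ := e.surjective v
      rw [show w = 1 from mem_bot.1 (c ▸ hv : w ∈ (⊥ : Subgroup W)), e1]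
    · obtain ⟨w, rfl⟩ := e.surjective v
      exact (c ▸ mem_top w : w ∈ T)) h fun c => x1 (ker ▸ c : x ∈ φ.ker)
  rw [finrank_fin_fun] at this
  refine ⟨r, a, _, hr, ha, ?_, this⟩
  rw [← card_submodule_zmod]
  exact Nat.card_congr (e.subtypeEquiv fun w => by
    rw [mem_fixSub_zpowers, ρa, e.injective.eq_iff])

/-- Flavell's bound -/
theorem two_mul_fix_lt {V : Type*} [AddCommGroup V] [Module k V] [FiniteDimensional k V]
    {ρ : G →* End k V} (irr : Irr ρ) (h : Gen p x) (x1 : ρ x ≠ 1) :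
    2 * finrank k (fixSub ρ (zpowers x)) < finrank k V :=
  irr_any (gls p _) le_rfl irr h x1

/-- Flavell's bound for chief factors -/
theorem sq_fix_lt {W : Type u} [Group W] [Finite W] [IsMulCommutative W] (φ : G →* MulAut W)
    (h : Gen p x) (x1 : φ x ≠ 1)
    (irr : ∀ U : Subgroup W, (∀ g, ∀ u ∈ U, φ g u ∈ U) → U = ⊥ ∨ U = ⊤) :
    Nat.card {w // φ x w = w} ^ 2 < Nat.card W := by
  obtain ⟨r, a, b, hr, ha, hb, hab⟩ := gls p _ φ h (Nat.lt_succ_self _) x1 irr
  rw [ha, hb, ← pow_mul, mul_comm]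
  exact Nat.pow_lt_pow_right hr.one_lt hab

end CF.Flav
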